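import Mathlib.GroupTheory.SpecificGroups.Alternating.KleinFour
import Mathlib.GroupTheory.SpecificGroups.Alternating.Simple
import Mathlib.GroupTheory.Solvable

/-!
Facts on `A₄` and `A₅` used for centralizers `⟨J⟩ × A_m`.
-/

set_option autoImplicit false

namespace Cfsg.Agent.TwoAlt

open Equiv

/-- The facts needed. -/
structure Small (m : ℕ) : Prop where
  pow_eight : ∀ x : alternatingGroup (Fin m), x ^ 8 = 1 → x * x = 1
  conj : ∀ a b : alternatingGroup (Fin m), a * a = 1 → a ≠ 1 → b * b = 1 → b ≠ 1 →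
    ∃ c, c * a * c⁻¹ = b
  core : ∀ K : Subgroup (alternatingGroup (Fin m)), K.Normal → Odd (Nat.card K) → K = ⊥
  card : Nat.card (alternatingGroup (Fin m)) = 12 ∨ Nat.card (alternatingGroup (Fin m)) = 60

theorem four_commutator : ∀ x : alternatingGroup (Fin 4), x ≠ 1 → ∃ y : alternatingGroup (Fin 4),
    (y * x * y⁻¹ * x⁻¹) * (y * x * y⁻¹ * x⁻¹) = 1 ∧ y * x * y⁻¹ * x⁻¹ ≠ 1 ∨ x * x = 1 := by
  decide +kernel

theorem four_centralizer : ∀ x y : alternatingGroup (Fin 4), x ^ 3 = 1 → x ≠ 1 → y * y = 1 →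
    y ≠ 1 → x * y ≠ y * x := by
  decide +kernel

theorem four_square_mul : ∀ x y : alternatingGroup (Fin 4), x * x = 1 → y * y = 1 →
    (x * y) * (x * y) = 1 ∧ x * y = y * x := by
  decide +kernel

theorem four_exists_three : ∃ x : alternatingGroup (Fin 4), x ^ 3 = 1 ∧ x ≠ 1 :=
  ⟨⟨swap 0 1 * swap 1 2, Perm.mem_alternatingGroup.2 (by decide)⟩, by decide +kernel,
    by decide +kernel⟩

theorem four_pow : ∀ x : alternatingGroup (Fin 4), x ^ 8 = 1 → x * x = 1 := by decide +kernel
theorem five_pow : ∀ x : alternatingGroup (Fin 5), x ^ 8 = 1 → x * x = 1 := by decide +kernel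

theorem four_conj : ∀ a b : alternatingGroup (Fin 4), a * a = 1 → a ≠ 1 → b * b = 1 → b ≠ 1 →
    ∃ c, c * a * c⁻¹ = b := by
  decide +kernel

theorem five_conj : ∀ a b : alternatingGroup (Fin 5), a * a = 1 → a ≠ 1 → b * b = 1 → b ≠ 1 →
    ∃ c, c * a * c⁻¹ = b := by
  decide +kernel

theorem mem_odd_sq {A : Type*} [Group A] {K : Subgroup A} [Finite K] (hodd : Odd (Nat.card K))
    {c : A} (hc : c ∈ K) (h2 : c * c = 1) : c = 1 := by
  by_contra h
  have h1 : orderOf c = 2 := orderOf_eq_prime (by rw [pow_two, h2]) h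
  have := Subgroup.orderOf_dvd_natCard K hc
  rw [h1] at this
  exact (Nat.not_even_iff_odd.2 hodd) (even_iff_two_dvd.2 this)

theorem small_four : Small 4 := by
  refine ⟨four_pow, four_conj, fun K hK hodd => ?_, Or.inl ?_⟩
  · rw [Subgroup.eq_bot_iff_forall]
    intro x hx
    by_contra hx1
    obtain ⟨y, ⟨h2, hne⟩ | h2⟩ := four_commutator x hx1
    · exact hne (mem_odd_sq hodd (mul_mem (hK.conj_mem x hx y) (inv_mem hx)) h2)
    · exact hx1 (mem_odd_sq hodd hx h2)
  · rw [nat_card_alternatingGroup, Nat.card_fin]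
    rfl

theorem small_five : Small 5 := by
  have hcard : Nat.card (alternatingGroup (Fin 5)) = 60 := by
    rw [nat_card_alternatingGroup, Nat.card_fin]
    rfl
  refine ⟨five_pow, five_conj, fun K hK hodd => ?_, Or.inr hcard⟩
  haveI := alternatingGroup.isSimpleGroup (α := Fin 5) (by simp)
  rcases hK.eq_bot_or_eq_top with h | h
  · exact h
  · rw [h, Subgroup.card_top, hcard] at hodd
    exact absurd hodd (by decide)

theorem small_of_range {m : ℕ} (h4 : 4 ≤ m) (h5 : m ≤ 5) : Small m := by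
  rcases (show m = 4 ∨ m = 5 by omega) with rfl | rfl
  · exact small_four
  · exact small_five

theorem isSolvable_four : Group.IsSolvable (alternatingGroup (Fin 4)) := by
  have h4 : Nat.card (Fin 4) = 4 := Nat.card_fin 4
  haveI := alternatingGroup.normal_kleinFour h4
  set V := alternatingGroup.kleinFour (Fin 4)
  have hV : Nat.card V = 4 := alternatingGroup.kleinFour_card_of_card_eq_four h4
  have hA : Nat.card (alternatingGroup (Fin 4)) = 12 := by
    rw [nat_card_alternatingGroup, Nat.card_fin]; rfl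
  have h3 : Nat.card (alternatingGroup (Fin 4) ⧸ V) = 3 := by
    have := V.card_mul_index
    rw [hV, hA] at this
    rw [← Subgroup.index_eq_card]
    omega
  haveI : Fact (Nat.Prime 3) := ⟨Nat.prime_three⟩
  haveI : IsCyclic (alternatingGroup (Fin 4) ⧸ V) := isCyclic_of_prime_card h3
  haveI : Group.IsSolvable (alternatingGroup (Fin 4) ⧸ V) := Group.isSolvable_of_comm fun a b => by
    letI := IsCyclic.commGroup (α := alternatingGroup (Fin 4) ⧸ V)
    exact mul_comm a b
  haveI : Group.IsSolvable V := Group.isSolvable_of_comm fun a b => by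
    have hsq : ∀ c : V, (c : alternatingGroup (Fin 4)) * c = 1 := fun c => by
      refine four_pow _ ?_
      have h : (c : alternatingGroup (Fin 4)) ^ 4 = 1 :=
        congrArg Subtype.val ((congrArg (c ^ ·) hV).symm.trans pow_card_eq_one')
      rw [show (8 : ℕ) = 4 * 2 from rfl, pow_mul, h, one_pow]
    exact Subtype.ext (four_square_mul _ _ (hsq a) (hsq b)).2
  exact (Group.isSolvable_iff_subgroup_quotient V).2 ⟨inferInstance, inferInstance⟩

end Cfsg.Agent.TwoAlt
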