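import Mathlib.GroupTheory.SpecificGroups.Alternating
import Mathlib.Tactic.Group

/-!
In an alternating group of degree at least six every involution lies in the derived subgroup
of its centralizer.
-/

set_option autoImplicit false

namespace Cfsg.Agent.TwoAlt

open Equiv Equiv.Perm

variable {α : Type*} [Fintype α] [DecidableEq α]

theorem commute_swap_of_fix (f : Perm α) {u v : α} (hu : f u = u) (hv : f v = v) :
    Commute f (swap u v) := by
  have h := Equiv.swap_apply_apply f u v
  rw [hu, hv] at h
  show f * swap u v = swap u v * f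
  calc f * swap u v = (f * swap u v * f⁻¹) * f := by group
    _ = swap u v * f := by rw [← h]

theorem commute_swap_of_swapped (f : Perm α) {u v : α} (hu : f u = v) (hv : f v = u) :
    Commute f (swap u v) := by
  have h := Equiv.swap_apply_apply f u v
  rw [hu, hv, Equiv.swap_comm] at h
  show f * swap u v = swap u v * f
  calc f * swap u v = (f * swap u v * f⁻¹) * f := by group
    _ = swap u v * f := by rw [← h]

theorem pair_mem (h6 : 6 ≤ Fintype.card α) (a : alternatingGroup α)
    (K : Subgroup (alternatingGroup α))
    (hK : ∀ x y : alternatingGroup α, Commute x a → Commute y a → x * y * x⁻¹ * y⁻¹ ∈ K)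
    (ha : ∀ x, (a : Perm α) ((a : Perm α) x) = x) {i j : α} (hi : (a : Perm α) i ≠ i)
    (hj : (a : Perm α) j ≠ j) (hji : j ≠ i) (hja : j ≠ (a : Perm α) i)
    (s : alternatingGroup α)
    (hs : (s : Perm α) = swap i ((a : Perm α) i) * swap j ((a : Perm α) j)) : s ∈ K := by
  classical
  set f : Perm α := (a : Perm α) with hf
  set i' := f i with hi'
  set j' := f j with hj'
  have fi' : f i' = i := ha i
  have fj' : f j' = j := ha j
  have d1 : i' ≠ j' := fun h => hji (f.injective h).symm
  have d2 : i ≠ j' := fun h => hja (f.injective (show f j = f i' by rw [fi']; exact h.symm))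
  -- a further pair of points
  let four : Finset α := {i, i', j, j'}
  have h4 : four.card ≤ 4 := Finset.card_le_four
  obtain ⟨k, hk⟩ : ∃ k, k ∉ four := by
    by_contra! h
    have := Finset.card_le_card (show (Finset.univ : Finset α) ⊆ four from fun x _ => h x)
    rw [Finset.card_univ] at this
    omega
  have hfour : ∀ x, x ∉ four → f x ∉ four := by
    intro x hx hfx
    simp only [four, Finset.mem_insert, Finset.mem_singleton] at hx hfx
    rcases hfx with h | h | h | h
    · exact hx (Or.inr (Or.inl (by rw [← ha x]; exact congrArg f h)))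
    · exact hx (Or.inl (f.injective h))
    · exact hx (Or.inr (Or.inr (Or.inr (by rw [← ha x]; exact congrArg f h))))
    · exact hx (Or.inr (Or.inr (Or.inl (f.injective h))))
  obtain ⟨k, l, hk, hl, hkl, hw⟩ :
      ∃ k l, k ∉ four ∧ l ∉ four ∧ k ≠ l ∧ Commute f (swap k l) := by
    by_cases hfk : f k = k
    · obtain ⟨l, hl⟩ : ∃ l, l ∉ insert k four := by
        by_contra! h
        have := Finset.card_le_card
          (show (Finset.univ : Finset α) ⊆ insert k four from fun x _ => h x)
        rw [Finset.card_univ] at this
        have := Finset.card_insert_le k four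
        omega
      rw [Finset.mem_insert, not_or] at hl
      by_cases hfl : f l = l
      · exact ⟨k, l, hk, hl.2, fun h => hl.1 h.symm, commute_swap_of_fix f hfk hfl⟩
      · exact ⟨l, f l, hl.2, hfour l hl.2, fun h => hfl h.symm,
          commute_swap_of_swapped f rfl (ha l)⟩
    · exact ⟨k, f k, hk, hfour k hk, fun h => hfk h.symm,
        commute_swap_of_swapped f rfl (ha k)⟩
  simp only [four, Finset.mem_insert, Finset.mem_singleton, not_or] at hk hl
  obtain ⟨hk1, hk2, hk3, hk4⟩ := hk
  obtain ⟨hl1, hl2, hl3, hl4⟩ := hl
  have hxs : swap i i' * swap k l ∈ alternatingGroup α := by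
    rw [mem_alternatingGroup, sign_mul, sign_swap (fun h => hi h.symm), sign_swap hkl]
    rfl
  have hys : swap i j * swap i' j' ∈ alternatingGroup α := by
    rw [mem_alternatingGroup, sign_mul, sign_swap (fun h => hji h.symm), sign_swap d1]
    rfl
  have hxa : Commute (⟨_, hxs⟩ : alternatingGroup α) a := Subtype.ext <|
    ((commute_swap_of_swapped f (rfl : f i = i') fi').mul_right hw).symm.eq
  have hya : Commute (⟨_, hys⟩ : alternatingGroup α) a := by
    apply Subtype.ext
    have h1 : f * swap i j * f⁻¹ = swap i' j' := (Equiv.swap_apply_apply f i j).symm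
    have h2 : f * swap i' j' * f⁻¹ = swap i j := by
      rw [← Equiv.swap_apply_apply, fi', fj']
    have h3 : Commute (swap i j) (swap i' j') :=
      commute_swap_of_fix _ (swap_apply_of_ne_of_ne (fun h => hi h) hja.symm)
        (swap_apply_of_ne_of_ne d2.symm (fun h => hj h))
    show swap i j * swap i' j' * f = f * (swap i j * swap i' j')
    calc swap i j * swap i' j' * f = swap i' j' * swap i j * f := by rw [h3.eq]
      _ = (f * swap i j * f⁻¹) * (f * swap i' j' * f⁻¹) * f := by rw [h1, h2]
      _ = f * (swap i j * swap i' j') := by group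
  have hcom := hK _ _ hxa hya
  have hwy : Commute (swap k l) (swap i j * swap i' j') :=
    (commute_swap_of_fix _ (swap_apply_of_ne_of_ne (Ne.symm hk1) (Ne.symm hl1))
      (swap_apply_of_ne_of_ne (Ne.symm hk3) (Ne.symm hl3))).mul_right
    (commute_swap_of_fix _ (swap_apply_of_ne_of_ne (Ne.symm hk2) (Ne.symm hl2))
      (swap_apply_of_ne_of_ne (Ne.symm hk4) (Ne.symm hl4)))
  have hyi : (swap i j * swap i' j') i = j := by
    rw [Perm.mul_apply, swap_apply_of_ne_of_ne (fun h => hi h.symm) d2, swap_apply_left]
  have hyi' : (swap i j * swap i' j') i' = j' := by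
    rw [Perm.mul_apply, swap_apply_left, swap_apply_of_ne_of_ne d2.symm (fun h => hj h)]
  have key : (swap i i' * swap k l) * (swap i j * swap i' j') * (swap i i' * swap k l)⁻¹ *
      (swap i j * swap i' j')⁻¹ = swap i i' * swap j j' := by
    have h := Equiv.swap_apply_apply (swap i j * swap i' j') i i'
    rw [hyi, hyi'] at h
    rw [h]
    have e : swap k l * (swap i j * swap i' j') * (swap k l)⁻¹ = swap i j * swap i' j' := by
      rw [hwy.eq]; group
    have e' : (swap i i' : Perm α)⁻¹ = swap i i' := swap_inv _ _
    calc _ = swap i i' * (swap k l * (swap i j * swap i' j') * (swap k l)⁻¹) * (swap i i')⁻¹ *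
          (swap i j * swap i' j')⁻¹ := by group
      _ = _ := by rw [e, e']; group
  convert hcom using 1
  apply Subtype.ext
  rw [hs]
  exact key.symm

/-- An involution of `A_n`, `n ≥ 6`, lies in every subgroup containing the commutators of its
centralizer. -/
theorem mem_of_commutators (h6 : 6 ≤ Fintype.card α) (a : alternatingGroup α) (h2 : a * a = 1)
    (K : Subgroup (alternatingGroup α))
    (hK : ∀ x y : alternatingGroup α, Commute x a → Commute y a → x * y * x⁻¹ * y⁻¹ ∈ K) :
    a ∈ K := by
  classical
  have ha : ∀ x, (a : Perm α) ((a : Perm α) x) = x := fun x =>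
    Equiv.Perm.congr_fun (congrArg Subtype.val h2) x
  suffices H : ∀ (n : ℕ) (b : alternatingGroup α), (b : Perm α).support.card ≤ n →
      (∀ x, (b : Perm α) x = x ∨ (b : Perm α) x = (a : Perm α) x) → b ∈ K from
    H _ a le_rfl fun x => Or.inr rfl
  intro n
  induction n with
  | zero =>
    intro b hb _
    rw [show b = 1 from Subtype.ext (support_eq_empty_iff.1 (Finset.card_eq_zero.1 (by omega)))]
    exact one_mem K
  | succ n ih =>
    intro b hb hP
    by_cases hb1 : b = 1
    · rw [hb1]; exact one_mem K
    obtain ⟨i, hi⟩ : ∃ i, (b : Perm α) i ≠ i := by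
      by_contra! h
      exact hb1 (Subtype.ext (Equiv.ext h))
    have hbi : (b : Perm α) i = (a : Perm α) i := (hP i).resolve_left hi
    have hai : (a : Perm α) i ≠ i := hbi ▸ hi
    have hbai : (b : Perm α) ((a : Perm α) i) = i := by
      rcases hP ((a : Perm α) i) with h | h
      · exact absurd ((b : Perm α).injective (h.trans hbi.symm)) hai
      · rw [h, ha]
    obtain ⟨j, hj, hji, hja⟩ : ∃ j, (b : Perm α) j ≠ j ∧ j ≠ i ∧ j ≠ (a : Perm α) i := by
      by_contra! h
      have hsw : (b : Perm α) = swap i ((a : Perm α) i) := by
        ext x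
        by_cases h1 : x = i
        · rw [h1, swap_apply_left, hbi]
        · by_cases h2 : x = (a : Perm α) i
          · rw [h2, swap_apply_right, hbai]
          · rw [swap_apply_of_ne_of_ne h1 h2]
            by_contra h3
            exact h2 (h x h3 h1)
      have := mem_alternatingGroup.1 b.2
      rw [hsw, sign_swap hai.symm] at this
      exact absurd this (by decide)
    have hbj : (b : Perm α) j = (a : Perm α) j := (hP j).resolve_left hj
    have haj : (a : Perm α) j ≠ j := hbj ▸ hj
    have hbaj : (b : Perm α) ((a : Perm α) j) = j := by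
      rcases hP ((a : Perm α) j) with h | h
      · exact absurd ((b : Perm α).injective (h.trans hbj.symm)) haj
      · rw [h, ha]
    have hss : swap i ((a : Perm α) i) * swap j ((a : Perm α) j) ∈ alternatingGroup α := by
      rw [mem_alternatingGroup, sign_mul, sign_swap hai.symm, sign_swap haj.symm]
      rfl
    set s : alternatingGroup α := ⟨_, hss⟩ with hsdef
    have hsK : s ∈ K := pair_mem h6 a K hK ha hai haj hji hja s rfl
    have hd2 : i ≠ (a : Perm α) j := fun h => hja (by rw [h, ha])
    have hd1 : (a : Perm α) i ≠ (a : Perm α) j := fun h => hji ((a : Perm α).injective h).symm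
    have e1 : ((s⁻¹ * b : alternatingGroup α) : Perm α) =
        swap j ((a : Perm α) j) * swap i ((a : Perm α) i) * (b : Perm α) := by
      simp [hsdef, swap_inv]
    have key : ∀ x, ((s⁻¹ * b : alternatingGroup α) : Perm α) x =
        if x ∈ ({i, (a : Perm α) i, j, (a : Perm α) j} : Finset α) then x else (b : Perm α) x := by
      intro x
      rw [e1, Perm.mul_apply, Perm.mul_apply]
      by_cases hx : x ∈ ({i, (a : Perm α) i, j, (a : Perm α) j} : Finset α)
      · rw [if_pos hx]
        simp only [Finset.mem_insert, Finset.mem_singleton] at hx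
        rcases hx with rfl | rfl | rfl | rfl
        · rw [hbi, swap_apply_right, swap_apply_of_ne_of_ne (Ne.symm hji) hd2]
        · rw [hbai, swap_apply_left, swap_apply_of_ne_of_ne hja.symm hd1]
        · rw [hbj, swap_apply_of_ne_of_ne hd2.symm hd1.symm, swap_apply_right]
        · rw [hbaj, swap_apply_of_ne_of_ne hji hja, swap_apply_left]
      · rw [if_neg hx]
        simp only [Finset.mem_insert, Finset.mem_singleton, not_or] at hx
        obtain ⟨n1, n2, n3, n4⟩ := hx
        have m : ∀ u v, (b : Perm α) u = v → x ≠ u → (b : Perm α) x ≠ v := fun u v h hne he =>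
          hne ((b : Perm α).injective (he.trans h.symm))
        rw [swap_apply_of_ne_of_ne (m _ _ hbai n2) (m _ _ hbi n1),
          swap_apply_of_ne_of_ne (m _ _ hbaj n4) (m _ _ hbj n3)]
    have hlt : ((s⁻¹ * b : alternatingGroup α) : Perm α).support.card ≤ n := by
      have hsub : ((s⁻¹ * b : alternatingGroup α) : Perm α).support ⊆
          (b : Perm α).support.erase i := by
        intro x hx
        rw [mem_support, key] at hx
        split_ifs at hx with h
        · exact absurd rfl hx
        · exact Finset.mem_erase.2 ⟨fun h' => h (by simp [h']), mem_support.2 hx⟩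
      have := Finset.card_le_card hsub
      rw [Finset.card_erase_of_mem (mem_support.2 hi)] at this
      omega
    have hP' : ∀ x, ((s⁻¹ * b : alternatingGroup α) : Perm α) x = x ∨
        ((s⁻¹ * b : alternatingGroup α) : Perm α) x = (a : Perm α) x := by
      intro x
      rw [key]
      split_ifs
      · exact Or.inl rfl
      · exact hP x
    have := mul_mem hsK (ih _ hlt hP')
    rwa [mul_inv_cancel_left] at this

end Cfsg.Agent.TwoAlt
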