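import Cfsg.Prelude
import Cfsg.Agent.TwoAlt.Commutator
import Cfsg.Agent.Invol.IndexTwo

/-!
A `2`-central involution `J` with centralizer `⟨J⟩ × T`, `T` alternating: local facts.
-/

set_option autoImplicit false

namespace Cfsg.Agent.TwoAlt

open Subgroup

variable {G : Type*} [Group G] [Finite G] {J : G} {T : Subgroup G}

/-- The configuration. -/
structure Data (J : G) (T : Subgroup G) (S : Sylow 2 G) : Prop where
  hJ : orderOf J = 2
  hTC : T ≤ centralizer ({J} : Set G)
  notMem : J ∉ T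
  cover : ∀ g ∈ centralizer ({J} : Set G), ∃ τ ∈ T, g = τ ∨ g = J * τ
  mem : J ∈ (S : Subgroup G)
  le : (S : Subgroup G) ≤ centralizer ({J} : Set G)

theorem exists_data (hd : IsInternalDirectProduct (zpowers J) T (centralizer ({J} : Set G)))
    (hJ : IsTwoCentralInvolution J) : ∃ S : Sylow 2 G, Data J T S := by
  obtain ⟨hJ2, S, hJS, hSc⟩ := hJ
  obtain ⟨-, hTC, hcomm, hinf, hsup⟩ := hd
  refine ⟨S, hJ2, hTC, fun h => ?_, fun g hg => ?_, hJS,
    fun x hx => mem_centralizer_singleton_iff.2 (hSc x hx)⟩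
  · have : J ∈ zpowers J ⊓ T := ⟨mem_zpowers J, h⟩
    rw [hinf, mem_bot] at this
    rw [this, orderOf_one] at hJ2
    exact absurd hJ2 (by norm_num)
  · have hle : zpowers J ≤ normalizer (T : Set G) := by
      rw [zpowers_le, mem_normalizer_iff]
      intro x
      constructor
      · intro hx
        rw [hcomm J (mem_zpowers J) x hx, mul_inv_cancel_right]
        exact hx
      · intro hx
        have h1 := hcomm J (mem_zpowers J) _ hx
        have : J * x * J⁻¹ = x := by
          calc J * x * J⁻¹ = J⁻¹ * (J * (J * x * J⁻¹)) := by group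
            _ = J⁻¹ * ((J * x * J⁻¹) * J) := by rw [h1]
            _ = x := by group
        rwa [this] at hx
    rw [← hsup, ← SetLike.mem_coe, coe_mul_of_left_le_normalizer_right _ _ hle] at hg
    obtain ⟨a, ha, τ, hτ, rfl⟩ := hg
    obtain ⟨k, rfl⟩ := ha
    refine ⟨τ, hτ, ?_⟩
    rcases Int.emod_two_eq_zero_or_one k with h | h
    · left
      show J ^ k * τ = τ
      rw [← zpow_mod_orderOf, hJ2]
      norm_num [h]
    · right
      show J ^ k * τ = J * τ
      rw [← zpow_mod_orderOf, hJ2]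
      norm_num [h]

variable {S : Sylow 2 G}

theorem Data.sq (hd : Data J T S) : J * J = 1 := by
  rw [← pow_two, ← hd.hJ, pow_orderOf_eq_one]

theorem Data.ne_one (hd : Data J T S) : J ≠ 1 := fun h => hd.notMem (h ▸ T.one_mem)

theorem Data.comm (hd : Data J T S) {τ : G} (hτ : τ ∈ T) : J * τ = τ * J :=
  (mem_centralizer_singleton_iff.1 (hd.hTC hτ)).symm

theorem Data.J_mem (hd : Data J T S) : J ∈ centralizer ({J} : Set G) :=
  mem_centralizer_singleton_iff.2 rfl

theorem Data.mul_notMem (hd : Data J T S) {τ : G} (hτ : τ ∈ T) : J * τ ∉ T := fun h =>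
  hd.notMem ((T.mul_mem_cancel_right hτ).1 h)

theorem comm_drop_left {x y : G} (hx : Commute J x) (hy : Commute J y) :
    J * x * y * (J * x)⁻¹ * y⁻¹ = x * y * x⁻¹ * y⁻¹ := by
  have h : Commute J (x * y * x⁻¹) := (hx.mul_right hy).mul_right hx.inv_right
  calc J * x * y * (J * x)⁻¹ * y⁻¹ = (J * (x * y * x⁻¹)) * J⁻¹ * y⁻¹ := by group
    _ = (x * y * x⁻¹ * J) * J⁻¹ * y⁻¹ := by rw [h.eq]
    _ = x * y * x⁻¹ * y⁻¹ := by group

theorem comm_drop_right {x y : G} (hx : Commute J x) (hy : Commute J y) :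
    x * (J * y) * x⁻¹ * (J * y)⁻¹ = x * y * x⁻¹ * y⁻¹ := by
  have h := congrArg (·⁻¹) (comm_drop_left hy hx)
  simp only [mul_inv_rev, inv_inv, ← mul_assoc] at h ⊢
  exact h

theorem Data.commutator_mem (hd : Data J T S) {x y : G} (hx : x ∈ centralizer ({J} : Set G))
    (hy : y ∈ centralizer ({J} : Set G)) : x * y * x⁻¹ * y⁻¹ ∈ T := by
  obtain ⟨a, ha, hxa⟩ := hd.cover x hx
  obtain ⟨b, hb, hyb⟩ := hd.cover y hy
  have cJ : ∀ τ ∈ T, Commute J τ := fun τ h => hd.comm h
  have cy : Commute J y := (mem_centralizer_singleton_iff.1 hy).symm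
  have key : x * y * x⁻¹ * y⁻¹ = a * b * a⁻¹ * b⁻¹ := by
    have h1 : x * y * x⁻¹ * y⁻¹ = a * y * a⁻¹ * y⁻¹ := by
      rcases hxa with rfl | rfl
      · rfl
      · exact comm_drop_left (cJ a ha) cy
    rw [h1]
    rcases hyb with rfl | rfl
    · rfl
    · exact comm_drop_right (cJ a ha) (cJ b hb)
  rw [key]
  exact mul_mem (mul_mem (mul_mem ha hb) (inv_mem ha)) (inv_mem hb)

theorem Data.card_eq (hd : Data J T S) {K : Subgroup G} (hK : K ≤ centralizer ({J} : Set G))
    (hJK : J ∈ K) : Nat.card K = 2 * Nat.card (K ⊓ T : Subgroup G) := by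
  have f : ∀ τ : (K ⊓ T : Subgroup G), J * (τ : G) ∈ K := fun τ => mul_mem hJK τ.2.1
  let φ : (K ⊓ T : Subgroup G) ⊕ (K ⊓ T : Subgroup G) → K :=
    Sum.elim (fun τ => ⟨τ, τ.2.1⟩) (fun τ => ⟨J * τ, f τ⟩)
  have hφ : Function.Bijective φ := by
    constructor
    · rintro (a | a) (b | b) h <;> have h' := congrArg Subtype.val h
      · exact congrArg Sum.inl (Subtype.ext h')
      · exact absurd (show J * (b : G) ∈ T from (show (a : G) = J * b from h') ▸ a.2.2)
          (hd.mul_notMem b.2.2)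
      · exact absurd (show J * (a : G) ∈ T from (show J * (a : G) = b from h').symm ▸ b.2.2)
          (hd.mul_notMem a.2.2)
      · exact congrArg Sum.inr (Subtype.ext (mul_left_cancel (show J * (a : G) = J * b from h')))
    · rintro ⟨g, hg⟩
      obtain ⟨τ, hτ, h | h⟩ := hd.cover g (hK hg)
      · exact ⟨Sum.inl ⟨g, hg, h ▸ hτ⟩, rfl⟩
      · refine ⟨Sum.inr ⟨τ, ?_, hτ⟩, Subtype.ext h.symm⟩
        have : τ = J⁻¹ * g := by rw [h]; group
        rw [this]
        exact K.mul_mem (K.inv_mem hJK) hg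
  rw [← Nat.card_congr (Equiv.ofBijective φ hφ), Nat.card_sum, two_mul]

/-- Thompson transfer: `J` has a conjugate in `T`, so `m ≤ 5`. -/
theorem Data.le_five (hd : Data J T S) {m : ℕ} (e : T ≃* alternatingGroup (Fin m))
    (hno : ∀ H : Subgroup G, H.index ≠ 2) : m ≤ 5 := by
  by_contra! h6
  obtain ⟨g, hg⟩ := Invol.exists_conj_mem_of_no_index_two hno S ((S : Subgroup G) ⊓ T)
    (hd.card_eq hd.le hd.mem).symm hd.hJ
  set a : G := g⁻¹ * J * g with hadef
  have haT : a ∈ T := hg.2
  have ha2 : a * a = 1 := by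
    calc a * a = g⁻¹ * (J * J) * g := by rw [hadef]; group
      _ = 1 := by rw [hd.sq]; group
  set ι : alternatingGroup (Fin m) →* G := T.subtype.comp e.symm.toMonoidHom with hι
  have hιinj : Function.Injective ι := T.subtype_injective.comp e.symm.injective
  have hιa : ι (e ⟨a, haT⟩) = a := by simp [hι]
  let K : Subgroup (alternatingGroup (Fin m)) :=
    (T.map (MulAut.conj g⁻¹).toMonoidHom).comap ι
  have hmem : e ⟨a, haT⟩ ∈ K := by
    refine mem_of_commutators (by rw [Fintype.card_fin]; omega) _ ?_ K fun x y hx hy => ?_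
    · exact hιinj (by rw [map_mul, hιa, map_one, ha2])
    · have hC : ∀ z, Commute z (e ⟨a, haT⟩) →
          g * ι z * g⁻¹ ∈ centralizer ({J} : Set G) := by
        intro z hz
        have h1 : ι z * a = a * ι z := by rw [← hιa]; exact (hz.map ι).eq
        rw [mem_centralizer_singleton_iff]
        calc g * ι z * g⁻¹ * J = g * (ι z * a) * g⁻¹ := by rw [hadef]; group
          _ = g * (a * ι z) * g⁻¹ := by rw [h1]
          _ = J * (g * ι z * g⁻¹) := by rw [hadef]; group
      refine ⟨_, hd.commutator_mem (hC x hx) (hC y hy), ?_⟩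
      rw [MulEquiv.coe_toMonoidHom, MulAut.conj_apply]
      simp only [map_mul, map_inv]
      group
  obtain ⟨τ, hτ, hτa⟩ := hmem
  rw [hιa, hadef, MulEquiv.coe_toMonoidHom, MulAut.conj_apply, inv_inv] at hτa
  exact hd.notMem ((mul_left_cancel (mul_right_cancel hτa)) ▸ hτ)

theorem Data.two_le (hd : Data J T S) {m : ℕ} (e : T ≃* alternatingGroup (Fin m))
    (hno : ∀ H : Subgroup G, H.index ≠ 2) : 4 ≤ m := by
  by_contra! h
  haveI : Fact (Nat.Prime 2) := ⟨Nat.prime_two⟩
  have hodd : Odd (Nat.card T) := by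
    rw [Nat.card_congr e.toEquiv, Nat.card_eq_fintype_card]
    interval_cases m <;> decide
  have h1 : Nat.card (S : Subgroup G) = 2 := by
    have hc := hd.card_eq hd.le hd.mem
    obtain ⟨k, hk⟩ := S.isPGroup'.exists_card_eq
    have hoddi : Odd (Nat.card ((S : Subgroup G) ⊓ T : Subgroup G)) :=
      hodd.of_dvd_nat (card_dvd_of_le inf_le_right)
    rcases k with _ | _ | k
    · omega
    · simpa using hk
    · rw [hc, pow_succ'] at hk
      have hk' : Nat.card ((S : Subgroup G) ⊓ T : Subgroup G) = 2 ^ (k + 1) := by omega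
      rw [hk', Nat.odd_pow_iff (by omega)] at hoddi
      exact absurd hoddi (by decide)
  haveI : IsCyclic (S : Subgroup G) := isCyclic_of_prime_card h1
  have heven : Even (Nat.card G) :=
    even_iff_two_dvd.2 (hd.hJ ▸ orderOf_dvd_natCard J)
  obtain ⟨H, hH⟩ := Invol.exists_index_two_of_cyclic_sylow heven S inferInstance
  exact hno H hH

end Cfsg.Agent.TwoAlt
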